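import Mathlib
import Cfsg.Prelude.Def_Classical
import Cfsg.Agent.H51.F16

/-!
# S3663 team project (helper34): groups of unbounded order with the prime graph of `PSU₃(4)`

`K` is the concrete field with 16 elements, `G = SU₃(4)` over `K` (standard Hermitian form
`∑ uᵢ vᵢ⁴`).  `IsW` is the space of functions on the 65 isotropic points (as scalar-invariant
functions on isotropic vectors) whose sums over the 208 hyperbolic lines vanish modulo 5: it has
dimension 13 and contains the constants; `VV` is its quotient by the constants (realised as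
differences), the 12-dimensional Weil module in characteristic 5.  Elements of order 13 of `G`
have no non-zero fixed vector on `VV`, and `VV^k ⋊ G` has the prime graph of `G ≅ PSU₃(4)`.
-/

set_option autoImplicit false

namespace Cfsg.Agent.H34.PG

open Matrix

/-- the concrete field with 16 elements -/
abbrev K : Type := Cfsg.Agent.H51.F16

instance : CharP K 2 :=
  CharTwo.of_one_ne_zero_of_two_eq_zero one_ne_zero (by decide : (2 : K) = 0)

/-- the element of `K` with bit pattern `n` (`kk 2 = ζ`, `ζ⁴ = ζ + 1`) -/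
def kk (n : ℕ) : K := ⟨n.testBit 0, n.testBit 1, n.testBit 2, n.testBit 3⟩

/-- the natural module -/
abbrev E : Type := Fin 3 → K

/-- `SU₃(4)` over the concrete field -/
abbrev G : Type := ↥(Cfsg.SU 3 K 4)

/-- the Hermitian form -/
abbrev hh (u v : E) : K := Cfsg.hermForm 3 K 4 u v

/-- the matrix of a group element -/
def mat (g : G) : Matrix (Fin 3) (Fin 3) K := g.1.1

/-- isotropic non-zero vectors -/
def IsoV (v : E) : Prop := v ≠ 0 ∧ hh v v = 0

instance : DecidablePred IsoV := fun v => by unfold IsoV; infer_instance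

/-- the subfield with four elements -/
def F4s : Finset K := Finset.univ.filter (fun t : K => t ^ 4 = t)

/-- functions on the isotropic points whose sums over the hyperbolic lines vanish -/
def IsW (f : E → ZMod 5) : Prop :=
  (∀ v, ¬ IsoV v → f v = 0) ∧ (∀ (c : K) (v : E), c ≠ 0 → f (c • v) = f v) ∧
  (∀ u v, IsoV u → IsoV v → hh u v = 1 → f u + ∑ t ∈ F4s, f (v + t • u) = 0)

/-- the differences of a function on the isotropic points -/
def dl (f : E → ZMod 5) : E → E → ZMod 5 :=
  fun x y => if IsoV x ∧ IsoV y then f x - f y else 0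

theorem mat_one : mat 1 = 1 := rfl

theorem mat_mul (g h : G) : mat (g * h) = mat g * mat h := rfl

theorem mat_inv_mul (g : G) : mat g⁻¹ * mat g = 1 := by
  rw [← mat_mul, inv_mul_cancel, mat_one]

theorem mat_mul_inv (g : G) : mat g * mat g⁻¹ = 1 := by
  rw [← mat_mul, mul_inv_cancel, mat_one]

theorem hh_mat (g : G) (u v : E) : hh (mat g *ᵥ u) (mat g *ᵥ v) = hh u v := g.2 u v

theorem mat_mulVec_eq_zero (g : G) (v : E) : mat g *ᵥ v = 0 ↔ v = 0 := by
  constructor
  · intro h
    have := congrArg (fun w => mat g⁻¹ *ᵥ w) h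
    simpa [Matrix.mulVec_mulVec, mat_inv_mul] using this
  · rintro rfl
    simp

theorem isoV_mat (g : G) (v : E) : IsoV (mat g *ᵥ v) ↔ IsoV v := by
  unfold IsoV
  rw [hh_mat, Ne, mat_mulVec_eq_zero]

theorem isW_zero : IsW 0 := by
  refine ⟨fun _ _ => rfl, fun _ _ _ => rfl, fun _ _ _ _ _ => ?_⟩
  simp

theorem isW_add {f f' : E → ZMod 5} (h : IsW f) (h' : IsW f') : IsW (f + f') := by
  refine ⟨fun v hv => ?_, fun c v hc => ?_, fun u v hu hv huv => ?_⟩
  · simp [h.1 v hv, h'.1 v hv]
  · simp [h.2.1 c v hc, h'.2.1 c v hc]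
  · have e1 := h.2.2 u v hu hv huv
    have e2 := h'.2.2 u v hu hv huv
    simp only [Pi.add_apply, Finset.sum_add_distrib]
    linear_combination e1 + e2

theorem isW_neg {f : E → ZMod 5} (h : IsW f) : IsW (-f) := by
  refine ⟨fun v hv => ?_, fun c v hc => ?_, fun u v hu hv huv => ?_⟩
  · simp [h.1 v hv]
  · simp [h.2.1 c v hc]
  · have e1 := h.2.2 u v hu hv huv
    simp only [Pi.neg_apply, Finset.sum_neg_distrib]
    linear_combination -e1

/-- translating a function of `IsW` by a group element -/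
theorem isW_comp {f : E → ZMod 5} (h : IsW f) (g : G) : IsW (fun x => f (mat g *ᵥ x)) := by
  refine ⟨fun v hv => ?_, fun c v hc => ?_, fun u v hu hv huv => ?_⟩
  · exact h.1 _ (fun hc => hv ((isoV_mat g v).1 hc))
  · show f (mat g *ᵥ (c • v)) = f (mat g *ᵥ v)
    rw [Matrix.mulVec_smul]
    exact h.2.1 c _ hc
  · have e := h.2.2 (mat g *ᵥ u) (mat g *ᵥ v) ((isoV_mat g u).2 hu) ((isoV_mat g v).2 hv)
      (by rw [hh_mat]; exact huv)
    show f (mat g *ᵥ u) + ∑ t ∈ F4s, f (mat g *ᵥ (v + t • u)) = 0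
    simpa [Matrix.mulVec_add, Matrix.mulVec_smul] using e

theorem dl_add (f f' : E → ZMod 5) : dl (f + f') = dl f + dl f' := by
  funext x y
  simp only [dl, Pi.add_apply]
  split_ifs <;> ring

theorem dl_neg (f : E → ZMod 5) : dl (-f) = -dl f := by
  funext x y
  simp only [dl, Pi.neg_apply]
  split_ifs <;> ring

theorem dl_zero : dl 0 = 0 := by
  funext x y
  simp [dl]

/-- the Weil module: differences of the functions of `IsW` -/
def VV : AddSubgroup (E → E → ZMod 5) where
  carrier := {Φ | ∃ f, IsW f ∧ Φ = dl f}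
  add_mem' := by
    rintro _ _ ⟨f, hf, rfl⟩ ⟨f', hf', rfl⟩
    exact ⟨f + f', isW_add hf hf', (dl_add f f').symm⟩
  zero_mem' := ⟨0, isW_zero, dl_zero.symm⟩
  neg_mem' := by
    rintro _ ⟨f, hf, rfl⟩
    exact ⟨-f, isW_neg hf, (dl_neg f).symm⟩

theorem mem_VV {Φ : E → E → ZMod 5} : Φ ∈ VV ↔ ∃ f, IsW f ∧ Φ = dl f := Iff.rfl

/-- the action of `G` on functions of two vectors -/
def actF (g : G) (Φ : E → E → ZMod 5) : E → E → ZMod 5 :=
  fun x y => Φ (mat g⁻¹ *ᵥ x) (mat g⁻¹ *ᵥ y)

theorem actF_apply (g : G) (Φ : E → E → ZMod 5) (x y : E) :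
    actF g Φ x y = Φ (mat g⁻¹ *ᵥ x) (mat g⁻¹ *ᵥ y) := rfl

theorem actF_one (Φ : E → E → ZMod 5) : actF 1 Φ = Φ := by
  funext x y
  simp [actF, mat_one]

theorem actF_mul (g h : G) (Φ : E → E → ZMod 5) : actF (g * h) Φ = actF g (actF h Φ) := by
  funext x y
  simp only [actF, _root_.mul_inv_rev, mat_mul, Matrix.mulVec_mulVec]

theorem actF_add (g : G) (Φ Ψ : E → E → ZMod 5) : actF g (Φ + Ψ) = actF g Φ + actF g Ψ := rfl

theorem actF_dl (g : G) (f : E → ZMod 5) :
    actF g (dl f) = dl (fun x => f (mat g⁻¹ *ᵥ x)) := by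
  funext x y
  simp only [actF, dl, isoV_mat]

theorem actF_mem (g : G) {Φ : E → E → ZMod 5} (h : Φ ∈ VV) : actF g Φ ∈ VV := by
  obtain ⟨f, hf, rfl⟩ := h
  exact ⟨_, isW_comp hf g⁻¹, actF_dl g f⟩

/-- the action of a group element on the Weil module -/
def actV (g : G) (v : ↥VV) : ↥VV := ⟨actF g v.1, actF_mem g v.2⟩

theorem actV_coe (g : G) (v : ↥VV) : ((actV g v : ↥VV) : E → E → ZMod 5) = actF g v.1 := rfl

theorem actV_one (v : ↥VV) : actV 1 v = v := Subtype.ext (actF_one v.1)

theorem actV_mul (g h : G) (v : ↥VV) : actV (g * h) v = actV g (actV h v) :=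
  Subtype.ext (actF_mul g h v.1)

theorem actV_add (g : G) (v w : ↥VV) : actV g (v + w) = actV g v + actV g w :=
  Subtype.ext (actF_add g v.1 w.1)

theorem actV_zero (g : G) : actV g 0 = 0 := Subtype.ext rfl

/-- the action of a group element on the Weil module, written multiplicatively -/
def rhoFun (g : G) : MulAut (Multiplicative ↥VV) where
  toFun v := Multiplicative.ofAdd (actV g (Multiplicative.toAdd v))
  invFun v := Multiplicative.ofAdd (actV g⁻¹ (Multiplicative.toAdd v))
  left_inv v := by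
    show Multiplicative.ofAdd (actV g⁻¹ (actV g (Multiplicative.toAdd v))) = v
    rw [← actV_mul, inv_mul_cancel, actV_one]
    rfl
  right_inv v := by
    show Multiplicative.ofAdd (actV g (actV g⁻¹ (Multiplicative.toAdd v))) = v
    rw [← actV_mul, mul_inv_cancel, actV_one]
    rfl
  map_mul' v w := by
    show Multiplicative.ofAdd (actV g (Multiplicative.toAdd v + Multiplicative.toAdd w)) = _
    rw [actV_add]
    rfl

/-- the action of `G` on the Weil module, written multiplicatively -/
def rho : G →* MulAut (Multiplicative ↥VV) where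
  toFun := rhoFun
  map_one' := by
    apply MulEquiv.ext
    intro v
    show Multiplicative.ofAdd (actV 1 (Multiplicative.toAdd v)) = v
    rw [actV_one]
    rfl
  map_mul' g h := by
    apply MulEquiv.ext
    intro v
    show Multiplicative.ofAdd (actV (g * h) (Multiplicative.toAdd v)) = _
    rw [actV_mul]
    rfl

theorem rho_apply (g : G) (v : Multiplicative ↥VV) :
    rho g v = Multiplicative.ofAdd (actV g (Multiplicative.toAdd v)) := rfl

universe u

/-- [TRANS] `PSU₃(4)` over any field with 16 elements is `G`. -/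
def StTrans : Prop :=
  ∀ (F : Type u) [Field F] [Fintype F], Fintype.card F = 16 → Nonempty (Cfsg.PSU 3 F 4 ≃* G)

/-- [CARD] the order of `G`. -/
def StCard : Prop := Nat.card G = 62400

/-- [EX] elements of order 10 and 15. -/
def StEx : Prop := (∃ x : G, orderOf x = 10) ∧ (∃ x : G, orderOf x = 15)

/-- [FIX0] an element of order 13 whose invariant functions in `IsW` are constant on the
isotropic vectors. -/
def StFix0 : Prop :=
  ∃ g₀ : G, orderOf g₀ = 13 ∧ ∀ f : E → ZMod 5, IsW f → (∀ x, f (mat g₀ *ᵥ x) = f x) →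
    ∀ x y, IsoV x → IsoV y → f x = f y

/-- [FPF] elements of order 13 have no non-zero fixed vector on the Weil module. -/
def StFpf : Prop := ∀ g : G, orderOf g = 13 → ∀ v : ↥VV, actV g v = v → v = 0

/-- [NZ] a non-constant function of `IsW`. -/
def StNz : Prop := ∃ f : E → ZMod 5, IsW f ∧ ∃ x y, IsoV x ∧ IsoV y ∧ f x ≠ f y

/-- [EXT] the generic extension statement: split extensions by powers of an abelian group of
exponent 5 on which the elements of order 13 act without fixed points. -/
def StExt : Prop :=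
  ∀ (G₀ : Type) [Group G₀] [Finite G₀] (A : Type) [CommGroup A] [Finite A]
    (φ : G₀ →* MulAut A), (∀ a : A, a ^ 5 = 1) → (∃ a : A, a ≠ 1) →
    (∀ p : ℕ, p.Prime → p ∣ Nat.card G₀ → p = 2 ∨ p = 3 ∨ p = 5 ∨ p = 13) →
    5 ∣ Nat.card G₀ → (∃ x : G₀, orderOf x = 10) → (∃ x : G₀, orderOf x = 15) →
    (∀ g : G₀, orderOf g = 13 → ∀ a : A, φ g a = a → a = 1) →
    ∀ N : ℕ, ∃ (H : Type) (_ : Group H) (_ : Finite H), N < Nat.card H ∧
      (∀ p : ℕ, p.Prime → (p ∣ Nat.card G₀ ↔ p ∣ Nat.card H)) ∧
      (∀ p q : ℕ, p.Prime → q.Prime → p ≠ q →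
        ((∃ g : G₀, orderOf g = p * q) ↔ (∃ g : H, orderOf g = p * q)))

end Cfsg.Agent.H34.PG
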