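import Mathlib
import Cfsg.Prelude.Def_Blocks
import Cfsg.Prelude.Def_Characters
import Cfsg.Prelude.Def_Solvable
import Cfsg.Prelude.Def_CaseTheorems
import Cfsg.Agent.H21.BRMDefs

/-!
helper34: piece S4700-NDF for helper21 (the arithmetic form of the failure of `ND p n`).
-/

set_option autoImplicit false

namespace Cfsg.Agent.H34.BRQ

open Cfsg Cfsg.Agent.H21.BR

theorem not_nd_form (p n : ℕ) (hp : p.Prime) (h : ¬ ND p n) :
    ∃ h u : ℕ, 0 < h ∧ 0 < u ∧ n * (u + 1) = h * u * p + u ^ 2 + u + h := by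
  unfold ND at h
  push Not at h
  obtain ⟨d, hd, hmod, hd1, hlt⟩ := h
  have hp1 : 1 ≤ p := hp.one_lt.le
  obtain ⟨u, hdu⟩ : ∃ u : ℕ, d = 1 + u * p := by
    refine ⟨d / p, ?_⟩
    have h1 := Nat.div_add_mod d p
    rw [hmod] at h1
    rw [mul_comm (d / p) p]
    omega
  have hu0 : 0 < u := by
    rcases Nat.eq_zero_or_pos u with h0 | h0
    · exfalso
      apply hd1
      rw [hdu, h0]
      simp
    · exact h0
  have hun : u < n := by
    rw [hdu] at hlt
    have h1 : u * p < n * p := by omega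
    exact Nat.lt_of_mul_lt_mul_right h1
  have hdz : (d : ℤ) ∣ ((u : ℤ) + 1) * ((n : ℤ) - u) := by
    have h1 : (d : ℤ) ∣ ((p : ℤ) - 1) * (1 + n * p) := by
      have h0 := Int.natCast_dvd_natCast.mpr hd
      rw [Nat.cast_mul, Nat.cast_sub hp1] at h0
      push_cast at h0
      exact h0
    have h2 : ((u : ℤ) + 1) * ((n : ℤ) - u) =
        (u : ℤ) ^ 2 * (((p : ℤ) - 1) * (1 + n * p)) -
          (d : ℤ) * (n * d - (n - u) - n * (u + 1)) := by
      rw [hdu]
      push_cast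
      ring
    rw [h2]
    exact dvd_sub (Dvd.dvd.mul_left h1 _) (dvd_mul_right _ _)
  have hdn : d ∣ (u + 1) * (n - u) := by
    have h1 : ((u : ℤ) + 1) * ((n : ℤ) - u) = (((u + 1) * (n - u) : ℕ) : ℤ) := by
      rw [Nat.cast_mul, Nat.cast_sub hun.le]
      push_cast
      ring
    rw [h1] at hdz
    exact Int.natCast_dvd_natCast.mp hdz
  obtain ⟨hh, hhe⟩ := hdn
  have hpos : 0 < (u + 1) * (n - u) := Nat.mul_pos (Nat.succ_pos u) (Nat.sub_pos_of_lt hun)
  have hh0 : 0 < hh := by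
    rcases Nat.eq_zero_or_pos hh with h0 | h0
    · rw [h0, mul_zero] at hhe
      omega
    · exact h0
  refine ⟨hh, u, hh0, hu0, ?_⟩
  have h3 : (u + 1) * (n - u) + (u + 1) * u = (u + 1) * n := by
    rw [← mul_add, Nat.sub_add_cancel hun.le]
  rw [hhe, hdu] at h3
  nlinarith [h3]

example (p n : ℕ) (hp : p.Prime) (h : ¬ ND p n) :
    ∃ h u : ℕ, 0 < h ∧ 0 < u ∧ n * (u + 1) = h * u * p + u ^ 2 + u + h := not_nd_form p n hp h

end Cfsg.Agent.H34.BRQ
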