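import Mathlib
import Cfsg.Agent.H59.GagDefs

/-!
helper34: piece S4840-ARITH of helper59's team project S4840 (`Cfsg.Agent.H59.Gag.ArithStmt`).
-/

set_option autoImplicit false

namespace Cfsg.Agent.H34.Gag

open Cfsg Cfsg.Agent.H59.Gag

universe u

theorem prime_pow_eq {p q k m : ℕ} (hp : p.Prime) (hq : q.Prime) (hm : m ≠ 0)
    (h : p ^ k = q ^ m) : p = q ∧ k = m := by
  have hk : k ≠ 0 := by
    rintro rfl
    rw [pow_zero] at h
    exact (Nat.one_lt_pow hm hq.one_lt).ne h
  have hpq : p = q := by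
    have h1 : p ∣ q ^ m := by
      rw [← h]
      exact dvd_pow_self p hk
    exact (Nat.prime_dvd_prime_iff_eq hp hq).1 (hp.dvd_of_dvd_pow h1)
  refine ⟨hpq, ?_⟩
  subst hpq
  exact Nat.pow_right_injective hp.two_le h

theorem arith : ArithStmt.{u} := by
  intro p hp V _ _ _ hV
  have hcard : Nat.card V = p ^ Module.finrank (ZMod p) V := by
    rw [Module.natCard_eq_pow_finrank (K := ZMod p) (V := V), Nat.card_zmod]
  have hpp : p.Prime := hp.out
  simp only [Set.mem_insert_iff, Set.mem_singleton_iff] at hV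
  rcases hV with h | h | h | h | h | h
  · obtain ⟨h1, h2⟩ := prime_pow_eq (q := 3) (m := 2) hpp (by norm_num) (by norm_num)
      (by rw [← hcard, h]; norm_num)
    left
    exact ⟨by rw [hcard, h2], Or.inl h1⟩
  · obtain ⟨h1, h2⟩ := prime_pow_eq (q := 5) (m := 2) hpp (by norm_num) (by norm_num)
      (by rw [← hcard, h]; norm_num)
    left
    exact ⟨by rw [hcard, h2], Or.inr (by omega)⟩
  · obtain ⟨h1, h2⟩ := prime_pow_eq (q := 7) (m := 2) hpp (by norm_num) (by norm_num)
      (by rw [← hcard, h]; norm_num)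
    left
    exact ⟨by rw [hcard, h2], Or.inr (by omega)⟩
  · obtain ⟨h1, h2⟩ := prime_pow_eq (q := 11) (m := 2) hpp (by norm_num) (by norm_num)
      (by rw [← hcard, h]; norm_num)
    left
    exact ⟨by rw [hcard, h2], Or.inr (by omega)⟩
  · obtain ⟨h1, h2⟩ := prime_pow_eq (q := 23) (m := 2) hpp (by norm_num) (by norm_num)
      (by rw [← hcard, h]; norm_num)
    left
    exact ⟨by rw [hcard, h2], Or.inr (by omega)⟩
  · obtain ⟨h1, h2⟩ := prime_pow_eq (q := 3) (m := 4) hpp (by norm_num) (by norm_num)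
      (by rw [← hcard, h]; norm_num)
    right
    exact ⟨h1, h⟩

example : Cfsg.Agent.H59.Gag.ArithStmt.{u} := arith

end Cfsg.Agent.H34.Gag
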