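import Mathlib
import Cfsg.Agent.H59.GagDefs

/-!
helper34: piece S4840-INVOL of helper59's team project S4840 (`Cfsg.Agent.H59.Gag.InvolStmt`).
-/

set_option autoImplicit false

namespace Cfsg.Agent.H34.Gag

open Cfsg Cfsg.Agent.H59.Gag

universe u

theorem invol_neg {X : Type u} [Group X] {p : ℕ} [Fact p.Prime] {V : Type u} [AddCommGroup V]
    [Module (ZMod p) V] {ρ : X →* (V ≃ₗ[ZMod p] V)} (hL : Lin X p V ρ) (hp2 : p ≠ 2)
    {t : X} (ht1 : t ≠ 1) (ht2 : t ^ 2 = 1) (v : V) : ρ t v = -v := by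
  have hρ : ρ t (ρ t v) = v := by
    have h1 : ρ t * ρ t = 1 := by rw [← map_mul, ← pow_two, ht2, map_one]
    have h2 := congrArg (fun f : V ≃ₗ[ZMod p] V => f v) h1
    simpa using h2
  have hw : ρ t (v + ρ t v) = v + ρ t v := by
    rw [map_add, hρ, add_comm]
  by_contra hne
  have hw0 : v + ρ t v ≠ 0 := by
    intro h0
    exact hne (eq_neg_of_add_eq_zero_right h0)
  obtain ⟨k, hk⟩ := hL.stab _ hw0 t hw
  have hodd : Odd (p ^ k) := by
    have hpo : Odd p := (Fact.out : p.Prime).odd_of_ne_two hp2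
    exact hpo.pow
  obtain ⟨m, hm⟩ := hodd
  rw [hm, pow_succ, pow_mul, ht2, one_pow, one_mul] at hk
  exact ht1 hk

theorem invol : InvolStmt.{u} := by
  intro X _ p _ V _ _ ρ hL hp2 s t hs1 ht1 hs2 ht2
  apply hL.inj
  ext v
  rw [invol_neg hL hp2 hs1 hs2, invol_neg hL hp2 ht1 ht2]

example : Cfsg.Agent.H59.Gag.InvolStmt.{u} := invol

end Cfsg.Agent.H34.Gag
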