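import Mathlib
import Cfsg.Agent.H59.GagDefs

/-!
helper34: piece S4840-ORB of helper59's team project S4840 (`Cfsg.Agent.H59.Gag.OrbStmt`).
-/

set_option autoImplicit false

namespace Cfsg.Agent.H34.Gag

open Cfsg Cfsg.Agent.H59.Gag

universe u

theorem card_ne_eq (α : Type*) [Finite α] (a : α) : Nat.card {b : α // b ≠ a} = Nat.card α - 1 := by
  classical
  cases nonempty_fintype α
  rw [Nat.card_eq_fintype_card, Nat.card_eq_fintype_card, Fintype.card_subtype_compl,
    Fintype.card_subtype_eq]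

theorem orb : OrbStmt.{u} := by
  intro X _ _ p _ V _ _ _ _ ρ hL
  obtain ⟨v₀, hv₀⟩ := exists_ne (0 : V)
  letI : MulAction X V := MulAction.compHom V ρ
  have hsmul : ∀ (g : X) (v : V), g • v = ρ g v := fun _ _ => rfl
  have horb : MulAction.orbit X v₀ = {v : V | v ≠ 0} := by
    ext v
    constructor
    · rintro ⟨g, rfl⟩
      show g • v₀ ≠ 0
      rw [hsmul]
      intro h0
      exact hv₀ ((ρ g).map_eq_zero_iff.1 h0)
    · intro hv
      obtain ⟨g, hg⟩ := hL.trans v₀ v hv₀ hv
      exact ⟨g, hg⟩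
  have h1 : (MulAction.stabilizer X v₀).index = Nat.card V - 1 := by
    rw [MulAction.index_stabilizer, horb, ← Nat.card_coe_set_eq]
    exact card_ne_eq V 0
  rw [← h1]
  exact Subgroup.index_dvd_card _

example : Cfsg.Agent.H59.Gag.OrbStmt.{u} := orb

end Cfsg.Agent.H34.Gag
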