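import Mathlib
import Cfsg.Agent.H9.J2FDefs

/-!
helper34: piece S5321-A5V for helper9 (a nontrivial subgroup of a four-group `V ≤ A5` invariant
under the normaliser of `V` in `A5` is `V`).
-/

set_option autoImplicit false

namespace Cfsg.Agent.H34.J2F

open Cfsg.Agent.H9.J2F

theorem a5_sq : ∀ s : Equiv.Perm (Fin 5), Equiv.Perm.sign s = 1 → s ^ 4 = 1 → s * s = 1 := by
  decide +kernel

theorem a5_cyc : ∀ w : Equiv.Perm (Fin 5), (Equiv.Perm.sign w = 1 ∧ w ≠ 1 ∧ w * w = 1) →
    ∀ v : Equiv.Perm (Fin 5),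
      (Equiv.Perm.sign v = 1 ∧ v ≠ 1 ∧ v ≠ w ∧ v * v = 1 ∧ w * v = v * w) →
      ∃ n : Equiv.Perm (Fin 5), Equiv.Perm.sign n = 1 ∧ n * w * n⁻¹ = v ∧
        n * v * n⁻¹ = w * v := by
  decide +kernel

theorem a5V : StA5V := by
  intro V W hVA hVc hWV hW1 hinv
  have hVfin : Finite V := Nat.finite_of_card_ne_zero (by rw [hVc]; norm_num)
  have hsq : ∀ x ∈ V, x * x = 1 := by
    intro x hx
    apply a5_sq x (Equiv.Perm.mem_alternatingGroup.mp (hVA hx))
    have h1 : (⟨x, hx⟩ : V) ^ Nat.card V = 1 := pow_card_eq_one'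
    rw [hVc] at h1
    exact congrArg Subtype.val h1
  obtain ⟨w, hwW, hw1⟩ : ∃ w ∈ W, w ≠ 1 := by
    by_contra hcon
    push Not at hcon
    exact hW1 ((Subgroup.eq_bot_iff_forall W).mpr hcon)
  have hwV := hWV hwW
  have hcardV : Nat.card V = (V : Set (Equiv.Perm (Fin 5))).ncard :=
    Nat.card_coe_set_eq (V : Set (Equiv.Perm (Fin 5)))
  obtain ⟨v, hvV, hv1, hvw⟩ : ∃ v ∈ V, v ≠ 1 ∧ v ≠ w := by
    by_contra hcon
    push Not at hcon
    have hsub : (V : Set (Equiv.Perm (Fin 5))) ⊆ {1, w} := by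
      intro x hx
      by_cases hx1 : x = 1
      · left; exact hx1
      · right; exact hcon x hx hx1
    have h2 : (V : Set (Equiv.Perm (Fin 5))).ncard ≤ 2 := by
      refine (Set.ncard_le_ncard hsub (Set.toFinite _)).trans ?_
      refine (Set.ncard_insert_le _ _).trans ?_
      rw [Set.ncard_singleton]
    omega
  have hw_inv : w⁻¹ = w := inv_eq_of_mul_eq_one_right (hsq w hwV)
  have hv_inv : v⁻¹ = v := inv_eq_of_mul_eq_one_right (hsq v hvV)
  have hcomm : w * v = v * w := by
    have h3 : (w * v)⁻¹ = w * v := inv_eq_of_mul_eq_one_right (hsq _ (mul_mem hwV hvV))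
    rw [mul_inv_rev, hv_inv, hw_inv] at h3
    exact h3.symm
  obtain ⟨n, hn, hnw, hnv⟩ := a5_cyc w ⟨Equiv.Perm.mem_alternatingGroup.mp (hVA hwV), hw1,
    hsq w hwV⟩ v ⟨Equiv.Perm.mem_alternatingGroup.mp (hVA hvV), hv1, hvw, hsq v hvV, hcomm⟩
  -- `V = {1, w, v, w * v}`
  have hwv1 : w * v ≠ 1 := by
    intro h
    apply hvw
    rw [← hw_inv]
    exact eq_inv_of_mul_eq_one_right h
  have hwvw : w * v ≠ w := by
    intro h
    exact hv1 (mul_left_cancel (h.trans (mul_one w).symm))
  have hwvv : w * v ≠ v := by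
    intro h
    exact hw1 (mul_right_cancel (h.trans (one_mul v).symm))
  have hVmem : ∀ x ∈ V, x = 1 ∨ x = w ∨ x = v ∨ x = w * v := by
    classical
    let s : Finset (Equiv.Perm (Fin 5)) := {1, w, v, w * v}
    have hs : s.card = 4 := by
      rw [Finset.card_insert_of_notMem, Finset.card_insert_of_notMem, Finset.card_pair]
      · exact fun h => hwvv h.symm
      · simp only [Finset.mem_insert, Finset.mem_singleton, not_or]
        exact ⟨fun h => hvw h.symm, fun h => hwvw h.symm⟩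
      · simp only [Finset.mem_insert, Finset.mem_singleton, not_or]
        exact ⟨fun h => hw1 h.symm, fun h => hv1 h.symm, fun h => hwv1 h.symm⟩
    have hsV : (s : Set (Equiv.Perm (Fin 5))) ⊆ (V : Set (Equiv.Perm (Fin 5))) := by
      intro x hx
      simp only [s, Finset.coe_insert, Finset.coe_singleton, Set.mem_insert_iff,
        Set.mem_singleton_iff] at hx
      rcases hx with rfl | rfl | rfl | rfl
      · exact V.one_mem
      · exact hwV
      · exact hvV
      · exact mul_mem hwV hvV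
    have heq : (s : Set (Equiv.Perm (Fin 5))) = (V : Set (Equiv.Perm (Fin 5))) := by
      apply Set.eq_of_subset_of_ncard_le hsV _ (Set.toFinite _)
      rw [Set.ncard_coe_finset, hs, ← hcardV, hVc]
    intro x hx
    have hx' : x ∈ (s : Set (Equiv.Perm (Fin 5))) := by rw [heq]; exact hx
    simpa [s] using hx'
  have hnorm : ∀ x ∈ V, n * x * n⁻¹ ∈ V := by
    intro x hx
    rcases hVmem x hx with rfl | rfl | rfl | rfl
    · rw [mul_one, mul_inv_cancel]; exact V.one_mem
    · rw [hnw]; exact hvV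
    · rw [hnv]; exact mul_mem hwV hvV
    · have : n * (w * v) * n⁻¹ = (n * w * n⁻¹) * (n * v * n⁻¹) := by group
      rw [this, hnw, hnv]
      exact mul_mem hvV (mul_mem hwV hvV)
  have hvW : v ∈ W := by
    have := hinv n (Equiv.Perm.mem_alternatingGroup.mpr hn) hnorm w hwW
    rw [hnw] at this
    exact this
  apply le_antisymm hWV
  intro x hx
  rcases hVmem x hx with rfl | rfl | rfl | rfl
  · exact W.one_mem
  · exact hwW
  · exact hvW
  · exact mul_mem hwW hvW

example : StA5V := a5V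

end Cfsg.Agent.H34.J2F
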