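import Mathlib
import Cfsg.Agent.H9.J2FDefs

/-!
helper34: piece S5321-CLV for helper9 (a strongly closed subgroup `T` of `P` with `Q < T` is `P`).
-/

set_option autoImplicit false

namespace Cfsg.Agent.H34.J2F

open Cfsg.Agent.H9.J2F

universe u

theorem clV : StClV.{u} := by
  intro hA5V J _ _ D P hPC hQP hP128 T hTP hQT hy hcl
  obtain ⟨y, hyT, hyQ⟩ := hy
  have hTC : T ≤ D.C := hTP.trans hPC
  let ψ : ↥(P : Subgroup J) →* Equiv.Perm (Fin 5) := D.φ.comp (Subgroup.inclusion hPC)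
  let ψT : ↥T →* Equiv.Perm (Fin 5) := D.φ.comp (Subgroup.inclusion hTC)
  have key : ∀ (x y : J) (hx : x ∈ D.C) (hy : y ∈ D.C), D.φ ⟨x, hx⟩ = D.φ ⟨y, hy⟩ →
      y⁻¹ * x ∈ D.Q := by
    intro x y hx hy h
    rw [D.mem_Q]
    refine ⟨D.C.mul_mem (D.C.inv_mem hy) hx, ?_⟩
    have h1 : (⟨y⁻¹ * x, D.C.mul_mem (D.C.inv_mem hy) hx⟩ : D.C) =
        (⟨y, hy⟩ : D.C)⁻¹ * ⟨x, hx⟩ := rfl
    rw [h1, map_mul, map_inv, h, inv_mul_cancel]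
  have hconj : ∀ (c x : J) (hc : c ∈ D.C) (hx : x ∈ D.C),
      D.φ ⟨c * x * c⁻¹, mul_mem (mul_mem hc hx) (inv_mem hc)⟩ =
        D.φ ⟨c, hc⟩ * D.φ ⟨x, hx⟩ * (D.φ ⟨c, hc⟩)⁻¹ := by
    intro c x hc hx
    have h1 : (⟨c * x * c⁻¹, mul_mem (mul_mem hc hx) (inv_mem hc)⟩ : D.C) =
        ⟨c, hc⟩ * ⟨x, hx⟩ * (⟨c, hc⟩ : D.C)⁻¹ := rfl
    rw [h1, map_mul, map_mul, map_inv]
  have hV4 : Nat.card ψ.range = 4 := by
    have h1 : Nat.card ψ.ker * ψ.ker.index = Nat.card (P : Subgroup J) :=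
      Subgroup.card_mul_index ψ.ker
    rw [Subgroup.index_ker, hP128] at h1
    have h2 : Nat.card ψ.ker = 32 := by
      rw [← D.card_Q]
      refine Nat.card_congr ⟨fun k => ⟨((k : ↥(P : Subgroup J)) : J), ?_⟩,
        fun q => ⟨⟨(q : J), hQP q.2⟩, ?_⟩, ?_, ?_⟩
      · rw [D.mem_Q]
        exact ⟨hPC k.1.2, MonoidHom.mem_ker.mp k.2⟩
      · rw [MonoidHom.mem_ker]
        obtain ⟨h, h1⟩ := (D.mem_Q _).mp q.2
        exact h1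
      · intro k; rfl
      · intro q; rfl
    rw [h2] at h1
    omega
  have hVA : ψ.range ≤ alternatingGroup (Fin 5) := by
    rintro σ ⟨p, rfl⟩
    rw [← D.hrange]
    exact ⟨⟨p, hPC p.2⟩, rfl⟩
  have hWV : ψT.range ≤ ψ.range := by
    rintro σ ⟨x, rfl⟩
    exact ⟨⟨x, hTP x.2⟩, rfl⟩
  have hW1 : ψT.range ≠ ⊥ := by
    intro h0
    have h1 : ψT ⟨y, hyT⟩ ∈ ψT.range := ⟨_, rfl⟩
    rw [h0, Subgroup.mem_bot] at h1
    exact hyQ ((D.mem_Q y).mpr ⟨hTC hyT, h1⟩)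
  have hinv : ∀ n ∈ alternatingGroup (Fin 5), (∀ v ∈ ψ.range, n * v * n⁻¹ ∈ ψ.range) →
      ∀ w ∈ ψT.range, n * w * n⁻¹ ∈ ψT.range := by
    intro n hn hnV w hw
    rw [← D.hrange] at hn
    obtain ⟨c, rfl⟩ := hn
    obtain ⟨x, rfl⟩ := hw
    obtain ⟨c, hc⟩ := c
    obtain ⟨x, hx⟩ := x
    have h1 : D.φ ⟨c, hc⟩ * ψ ⟨x, hTP hx⟩ * (D.φ ⟨c, hc⟩)⁻¹ ∈ ψ.range :=
      hnV _ ⟨⟨x, hTP hx⟩, rfl⟩
    obtain ⟨⟨p, hp⟩, hpe⟩ := h1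
    have hcx : c * x * c⁻¹ ∈ D.C := mul_mem (mul_mem hc (hTC hx)) (inv_mem hc)
    have h2 : D.φ ⟨c * x * c⁻¹, hcx⟩ = D.φ ⟨p, hPC hp⟩ := by
      rw [hconj c x hc (hTC hx)]
      exact hpe.symm
    have h3 := key _ _ hcx (hPC hp) h2
    have h4 : c * x * c⁻¹ ∈ (P : Subgroup J) := by
      have := mul_mem hp (hQP h3)
      rwa [mul_inv_cancel_left] at this
    have h5 := hcl x hx c h4
    exact ⟨⟨c * x * c⁻¹, h5⟩, hconj c x hc (hTC hx)⟩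
  have hWeq := hA5V ψ.range ψT.range hVA hV4 hWV hW1 hinv
  apply le_antisymm hTP
  intro x hx
  have h1 : ψ ⟨x, hx⟩ ∈ ψT.range := by
    rw [hWeq]
    exact ⟨_, rfl⟩
  obtain ⟨⟨y', hy'⟩, hye⟩ := h1
  have h2 := key x y' (hPC hx) (hTC hy') hye.symm
  have := mul_mem hy' (hQT h2)
  rwa [mul_inv_cancel_left] at this

example : StClV.{u} := clV

end Cfsg.Agent.H34.J2F
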