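import Mathlib
import Cfsg.Agent.H9.J2FDefs

/-!
helper34: pieces S5321-QP, S5321-CONJ for helper9.
-/

set_option autoImplicit false

namespace Cfsg.Agent.H34.J2F

open Cfsg.Agent.H9.J2F
open scoped Pointwise

universe u

/-- `Q` is normalised by `C`. -/
theorem conj_mem_Q {J : Type u} [Group J] (D : FD J) {c x : J} (hc : c ∈ D.C) (hx : x ∈ D.Q) :
    c * x * c⁻¹ ∈ D.Q := by
  obtain ⟨hxC, hx1⟩ := (D.mem_Q x).mp hx
  rw [D.mem_Q]
  refine ⟨mul_mem (mul_mem hc hxC) (inv_mem hc), ?_⟩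
  have h1 : (⟨c * x * c⁻¹, mul_mem (mul_mem hc hxC) (inv_mem hc)⟩ : D.C) =
      ⟨c, hc⟩ * ⟨x, hxC⟩ * (⟨c, hc⟩ : D.C)⁻¹ := rfl
  rw [h1, map_mul, map_mul, map_inv, hx1, mul_one, mul_inv_cancel]

theorem C_le_normalizer_Q {J : Type u} [Group J] (D : FD J) :
    D.C ≤ Subgroup.normalizer (D.Q : Set J) := by
  intro c hc
  rw [Subgroup.mem_normalizer_iff]
  intro x
  constructor
  · intro hx
    exact conj_mem_Q D hc hx
  · intro hx
    have h1 := conj_mem_Q D (inv_mem hc) hx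
    have h2 : c⁻¹ * (c * x * c⁻¹) * c⁻¹⁻¹ = x := by group
    rwa [h2] at h1

/-- QP: `Q ≤ P ≤ N(Q)`. -/
theorem qP : StQP.{u} := by
  intro J _ _ D P hPC
  have : Fact (Nat.Prime 2) := ⟨Nat.prime_two⟩
  refine ⟨?_, hPC.trans (C_le_normalizer_Q D)⟩
  have hker : Nat.card D.φ.ker = 2 ^ 5 := by
    have h := D.hker
    have h2 : Nat.card ↥(kerJ D.C D.φ) = Nat.card D.φ.ker :=
      Subgroup.card_map_of_injective (Subgroup.subtype_injective D.C)
    rw [← h2, h]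
    norm_num
  have hp : IsPGroup 2 D.φ.ker := IsPGroup.of_card hker
  have hle : D.φ.ker ≤ ((P.subtype hPC : Sylow 2 ↥D.C) : Subgroup ↥D.C) :=
    hp.le_sylow_of_normal (P.subtype hPC)
  intro x hx
  obtain ⟨hxC, hx1⟩ := (D.mem_Q x).mp hx
  have h3 : (⟨x, hxC⟩ : D.C) ∈ ((P.subtype hPC : Sylow 2 ↥D.C) : Subgroup ↥D.C) :=
    hle (MonoidHom.mem_ker.mpr hx1)
  rw [Sylow.coe_subtype, Subgroup.mem_subgroupOf] at h3
  exact h3

/-- CONJ: every 2-element of `C` is `C`-conjugate into `P`. -/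
theorem conj : StConj.{u} := by
  intro J _ _ D P hPC y hy hk
  have : Fact (Nat.Prime 2) := ⟨Nat.prime_two⟩
  obtain ⟨k, hk⟩ := hk
  have ho : orderOf (⟨y, hy⟩ : D.C) = 2 ^ k := by
    rw [← hk]
    exact Subgroup.orderOf_mk y hy
  have hp : IsPGroup 2 (Subgroup.zpowers (⟨y, hy⟩ : D.C)) := by
    apply IsPGroup.of_card (n := k)
    rw [Nat.card_zpowers, ho]
  obtain ⟨R, hR⟩ := hp.exists_le_sylow
  obtain ⟨c, hc⟩ := MulAction.exists_smul_eq ↥D.C R (P.subtype hPC)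
  have h1 : MulAut.conj c • (⟨y, hy⟩ : D.C) ∈ MulAut.conj c • (R : Subgroup ↥D.C) :=
    Subgroup.smul_mem_pointwise_smul _ _ _ (hR (Subgroup.mem_zpowers _))
  rw [MulAut.smul_def, MulAut.conj_apply, ← Sylow.coe_subgroup_smul, hc, Sylow.coe_subtype,
    Subgroup.mem_subgroupOf] at h1
  exact ⟨(c : J), c.2, h1⟩

example : StQP.{u} := qP
example : StConj.{u} := conj

end Cfsg.Agent.H34.J2F
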