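import Mathlib
import Cfsg.Agent.H9.J2FDefs

/-!
helper34: pieces S5321-CARD, S5321-P128, S5321-EX for helper9.
-/

set_option autoImplicit false

namespace Cfsg.Agent.H34.J2F

open Cfsg.Agent.H9.J2F

universe u

/-- CARD: `|C| = 1920`. -/
theorem card : StCard.{u} := by
  intro J _ _ D
  have h1 : Nat.card D.φ.ker * D.φ.ker.index = Nat.card D.C := Subgroup.card_mul_index D.φ.ker
  rw [Subgroup.index_ker, D.hrange, nat_card_alternatingGroup] at h1
  have h2 : Nat.card D.φ.ker = 32 := by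
    rw [← D.hker]
    exact (Subgroup.card_map_of_injective (Subgroup.subtype_injective D.C)).symm
  have h3 : (Nat.card (Fin 5)).factorial / 2 = 60 := by
    rw [Nat.card_fin]
    decide
  rw [h2, h3] at h1
  omega

/-- a Sylow 2-subgroup of a group of order `128 * m`, `m` odd, has order 128 -/
theorem card_sylow_two {G : Type u} [Group G] [Finite G] (m : ℕ) (hm : Nat.card G = 128 * m)
    (hodd : ¬ 2 ∣ m) (P : Sylow 2 G) : Nat.card ↥(P : Subgroup G) = 128 := by
  have : Fact (Nat.Prime 2) := ⟨Nat.prime_two⟩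
  obtain ⟨k, hk⟩ := IsPGroup.iff_card.mp P.isPGroup'
  have h1 : 2 ^ k ∣ 128 * m := by
    rw [← hk, ← hm]
    exact Subgroup.card_subgroup_dvd_card _
  have h2 : 2 ^ 7 ∣ Nat.card (P : Subgroup G) :=
    P.pow_dvd_card_of_pow_dvd_card (by rw [hm]; exact Dvd.intro _ rfl)
  rw [hk] at h2
  have h3 : 7 ≤ k := (Nat.pow_dvd_pow_iff_le_right (by norm_num)).mp h2
  have h4 : k ≤ 7 := by
    by_contra hcon
    have h8 : 8 ≤ k := by omega
    have h5 : 2 ^ 8 ∣ 128 * m := (pow_dvd_pow 2 h8).trans h1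
    have h6 : (128 * 2 : ℕ) ∣ 128 * m := by
      have : (2 : ℕ) ^ 8 = 128 * 2 := by norm_num
      rwa [this] at h5
    exact hodd (Nat.dvd_of_mul_dvd_mul_left (by norm_num) h6)
  have h7 : k = 7 := le_antisymm h4 h3
  rw [hk, h7]
  norm_num

/-- P128: a Sylow 2-subgroup of `J` has order 128. -/
theorem p128 : StP128.{u} := by
  intro J _ _ P hJ
  exact card_sylow_two 4725 (by rw [hJ]) (by norm_num) P

/-- EX: some Sylow 2-subgroup of `J` lies in `C`. -/
theorem ex : StEx.{u} := by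
  intro J _ _ D hC
  have : Fact (Nat.Prime 2) := ⟨Nat.prime_two⟩
  obtain ⟨P0⟩ : Nonempty (Sylow 2 ↥D.C) := inferInstance
  obtain ⟨Q, hQ⟩ := Sylow.exists_comap_subtype_eq P0
  refine ⟨Q, ?_⟩
  have h1 : Nat.card ↥(P0 : Subgroup ↥D.C) = 128 :=
    card_sylow_two 15 (by rw [hC]) (by norm_num) P0
  have h2 : Nat.card ↥(Q : Subgroup J) = 128 :=
    card_sylow_two 4725 (by rw [D.hcard]) (by norm_num) Q
  have h3 : ((Q : Subgroup J).subgroupOf D.C) = (P0 : Subgroup ↥D.C) := by
    rw [← hQ]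
    rfl
  have h4 : Nat.card ↥((Q : Subgroup J) ⊓ D.C) = 128 := by
    rw [← Subgroup.subgroupOf_map_subtype,
      Subgroup.card_map_of_injective (Subgroup.subtype_injective D.C), h3, h1]
  have h5 : (Q : Subgroup J) ⊓ D.C = (Q : Subgroup J) :=
    Subgroup.eq_of_le_of_card_ge inf_le_left (by rw [h4, h2])
  rw [← h5]
  exact inf_le_right

example : StCard.{u} := card
example : StP128.{u} := p128
example : StEx.{u} := ex

end Cfsg.Agent.H34.J2F
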