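import Mathlib

/-!
helper34: definitions and exact piece statements for S5322 (the 2-fusion system of J₃ is simple).

`CD J` is the multiplication data of an involution centraliser `C_J(t) = Q : H` inside a group `J`:
`Q = eq '' Fin 32` (extraspecial `2^{1+4}`), `H = eh '' Fin 60` (`A₅`), `t = eq 1`, and `V ⊆ Fin 60`
indexing a four-group of `H`; `D.Q = range eq`, `D.P = Q·V` (a Sylow 2-subgroup of `J`).
-/

set_option autoImplicit false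

namespace Cfsg.Agent.H34.J3F

universe u

/-- Multiplication data of `C_J(t) = Q : H`, `t = eq 1`, plus the table facts used. -/
structure CD (J : Type u) [Group J] where
  eq : Fin 32 → J
  eh : Fin 60 → J
  qm : Fin 32 → Fin 32 → Fin 32
  hm : Fin 60 → Fin 60 → Fin 60
  act : Fin 60 → Fin 32 → Fin 32
  V : Finset (Fin 60)
  hq0 : eq 0 = 1
  hh0 : eh 0 = 1
  hqm : ∀ a a', eq a * eq a' = eq (qm a a')
  hhm : ∀ b b', eh b * eh b' = eh (hm b b')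
  hact : ∀ b a, eh b * eq a = eq (act b a) * eh b
  hqi : Function.Injective eq
  hhi : Function.Injective eh
  hqh : ∀ a b, eq a = eh b → a = 0
  hcent : ∀ g : J, g * eq 1 = eq 1 * g → ∃ a b, g = eq a * eh b
  hconj : ∀ g : J, g * g = 1 → g ≠ 1 → ∃ u : J, u * eq 1 * u⁻¹ = g
  T0 : ∀ a, ∃ a', qm a a' = 0
  T1 : ∀ a, ∃ a1 a2, qm a1 a1 = 0 ∧ qm a2 a2 = 0 ∧ qm a1 a2 = a
  T2 : ∀ a b, (∀ a', qm a (act b a') = qm a' a) → b = 0
  T3 : ∀ c, (∀ a, qm a c = qm c a) → c = 0 ∨ c = 1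
  T4 : ∀ b, ∃ b1 b2, hm b1 b1 = 0 ∧ hm b2 b2 = 0 ∧ hm b1 b2 = b
  T5 : ∀ a, qm (qm a a) (qm a a) = 0
  T6 : ∀ b, act b 1 = 1
  T7 : ∀ a, qm a 1 = qm 1 a
  T8 : qm 1 1 = 0
  hV0 : (0 : Fin 60) ∈ V
  hVm : ∀ v ∈ V, ∀ w ∈ V, hm v w ∈ V
  hVc : V.card = 4
  hV2 : ∀ v ∈ V, hm v v = 0

variable {J : Type u} [Group J] (D : CD J)

/-- `Q = range eq`. -/
def CD.Q : Subgroup J where
  carrier := Set.range D.eq
  mul_mem' := by
    rintro _ _ ⟨a, rfl⟩ ⟨a', rfl⟩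
    exact ⟨D.qm a a', (D.hqm a a').symm⟩
  one_mem' := ⟨0, D.hq0⟩
  inv_mem' := by
    rintro _ ⟨a, rfl⟩
    obtain ⟨a', ha'⟩ := D.T0 a
    have h1 : D.eq a * D.eq a' = 1 := by rw [D.hqm, ha', D.hq0]
    exact ⟨a', eq_inv_of_mul_eq_one_right h1⟩

/-- `P = Q·V = {eq a * eh v | v ∈ V}`. -/
def CD.P : Subgroup J where
  carrier := {x | ∃ a, ∃ v ∈ D.V, x = D.eq a * D.eh v}
  mul_mem' := by
    rintro _ _ ⟨a, v, hv, rfl⟩ ⟨a', v', hv', rfl⟩
    refine ⟨D.qm a (D.act v a'), D.hm v v', D.hVm v hv v' hv', ?_⟩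
    rw [← D.hqm, ← D.hhm, mul_assoc, ← mul_assoc (D.eh v), D.hact, mul_assoc, mul_assoc]
  one_mem' := ⟨0, 0, D.hV0, by rw [D.hq0, D.hh0, mul_one]⟩
  inv_mem' := by
    rintro _ ⟨a, v, hv, rfl⟩
    obtain ⟨a', ha'⟩ := D.T0 a
    have h1 : D.eq a * D.eq a' = 1 := by rw [D.hqm, ha', D.hq0]
    have h2 : D.eh v * D.eh v = 1 := by rw [D.hhm, D.hV2 v hv, D.hh0]
    refine ⟨D.act v a', v, hv, ?_⟩
    rw [← D.hact, mul_inv_rev, ← eq_inv_of_mul_eq_one_right h1, ← eq_inv_of_mul_eq_one_right h2]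

theorem CD.mem_Q (x : J) : x ∈ D.Q ↔ ∃ a, x = D.eq a := by
  constructor
  · rintro ⟨a, rfl⟩
    exact ⟨a, rfl⟩
  · rintro ⟨a, rfl⟩
    exact ⟨a, rfl⟩

theorem CD.mem_P (x : J) : x ∈ D.P ↔ ∃ a, ∃ v ∈ D.V, x = D.eq a * D.eh v := Iff.rfl

/-! ### The pieces -/

/-- CARD: `|P| = 128`. -/
def StCard : Prop := ∀ (J : Type u) [Group J] (D : CD J), Nat.card D.P = 128

/-- SYL: a subgroup of order 128 of a group of order 50232960 is a Sylow 2-subgroup. -/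
def StSyl : Prop := ∀ (J : Type u) [Group J] [Finite J] (P : Subgroup J),
  Nat.card J = 50232960 → Nat.card P = 128 → ∃ S : Sylow 2 J, (S : Subgroup J) = P

/-- CL: a nontrivial strongly closed subgroup of `P` is `P`. -/
def StCl : Prop := ∀ (J : Type u) [Group J] [Finite J] (D : CD J), Nat.card D.P = 128 →
  ∀ T : Subgroup J, T ≤ D.P → T ≠ ⊥ →
    (∀ x ∈ T, ∀ d : J, d * x * d⁻¹ ∈ D.P → d * x * d⁻¹ ∈ T) → T = D.P

/-- EQ: `Q ≤ P ≤ N(Q)` and `C(Q) ≤ Q`. -/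
def StEQ : Prop := ∀ (J : Type u) [Group J] (D : CD J),
  D.Q ≤ D.P ∧ D.P ≤ Subgroup.normalizer (D.Q : Set J) ∧ Subgroup.centralizer (D.Q : Set J) ≤ D.Q

/-- NP: `N(P) ≤ C(t)`. -/
def StNP : Prop := ∀ (J : Type u) [Group J] (D : CD J) (g : J),
  g ∈ Subgroup.normalizer (D.P : Set J) → g * D.eq 1 = D.eq 1 * g

/-- GEN: `C(t)` is generated by 2-elements of `N(Q)`. -/
def StGen : Prop := ∀ (J : Type u) [Group J] (D : CD J) (g : J), g * D.eq 1 = D.eq 1 * g →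
  g ∈ Subgroup.closure {y : J | y ∈ Subgroup.normalizer (D.Q : Set J) ∧ ∃ k : ℕ, orderOf y = 2 ^ k}

/-- CENT: the centraliser of `t` is `{eq a * eh b}` once its order is at most `1920`. -/
def StCent : Prop := ∀ (J : Type u) [Group J] [Finite J] (t : J) (eq : Fin 32 → J)
  (eh : Fin 60 → J) (qm : Fin 32 → Fin 32 → Fin 32) (hm : Fin 60 → Fin 60 → Fin 60)
  (act : Fin 60 → Fin 32 → Fin 32), eq 0 = 1 → eh 0 = 1 →
  (∀ a a', eq a * eq a' = eq (qm a a')) → (∀ b b', eh b * eh b' = eh (hm b b')) →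
  (∀ b a, eh b * eq a = eq (act b a) * eh b) → Function.Injective eq → Function.Injective eh →
  (∀ a b, eq a = eh b → a = 0) → (∀ a, eq a * t = t * eq a) → (∀ b, eh b * t = t * eh b) →
  Nat.card (Subgroup.centralizer ({t} : Set J)) ≤ 1920 →
  ∀ g : J, g * t = t * g → ∃ a b, g = eq a * eh b

end Cfsg.Agent.H34.J3F
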