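import Mathlib
import Cfsg.Agent.H34.J3FDefs
import Cfsg.Agent.H88.FamEquiv

/-!
helper34: S5322 assembly (abstract part): the pieces give simplicity of the 2-fusion system of any
group isomorphic to a group `J` of order 50232960 carrying the data `CD J`.
-/

set_option autoImplicit false

namespace Cfsg.Agent.H34.J3F

open Cfsg

universe u v

theorem fus_abs (hCard : StCard.{u}) (hSyl : StSyl.{u}) (hCl : StCl.{u}) (hEQ : StEQ.{u})
    (hNP : StNP.{u}) (hGen : StGen.{u})
    {J : Type u} [Group J] [Finite J] (D : CD J) (hJ : Nat.card J = 50232960)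
    {G' : Type v} [Group G'] [Finite G'] (e : J ≃* G') (S : Sylow 2 G') :
    (groupFusionSystem (S : Subgroup G')).IsSimple 2 := by
  have hc := hCard J D
  obtain ⟨P, hP⟩ := hSyl J D.P hJ hc
  have : Fact (Nat.Prime 2) := ⟨Nat.prime_two⟩
  refine Cfsg.Agent.H88.simple_of_centric_family_equiv e 2 P ?_ ?_ {D.Q} ?_ ?_ S
  · rw [hP]
    intro h0
    rw [h0] at hc
    simp at hc
  · rw [hP]
    exact hCl J D hc
  · intro E hE
    rw [Set.mem_singleton_iff] at hE
    subst hE
    rw [hP]
    exact hEQ J D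
  · rw [hP]
    intro g hg
    exact Subgroup.subset_closure ⟨hg, D.Q, rfl, hGen J D g (hNP J D g hg)⟩

end Cfsg.Agent.H34.J3F
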