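import Cfsg.Agent.H34.J3FTab
import Cfsg.Agent.H34.J3FAsm

/-!
helper34: S5322, the `J₃` side: the data `CD` for `J₃ = G h ⧸ centre` from the tables of the
involution centraliser (S2135), and the simplicity of the 2-fusion system from the pieces.
-/

set_option autoImplicit false
set_option linter.unusedSectionVars false

namespace Cfsg.Agent.H34.J3F

open Cfsg.Agent.H10.F4 Cfsg.Agent.H10.J3 Cfsg.Agent.H6.J3O Cfsg.Spor Cfsg.Agent.H34.J3C
open scoped MatrixGroups
open Matrix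

universe u v

section

variable {F : Type u} [Field F] [Finite F] {ω : F} (h : Cfsg.Agent.H10.F4.IsF4 F ω)

theorem gQ_one : gQ h 1 = yh h := by
  refine ext_rep h (rep_gQ h 1) ?_
  show Rep ω _ (cQ 1)
  rw [cQ_one]
  exact rep_yG h

theorem J_card : Nat.card (G h ⧸ Subgroup.center (G h)) = 50232960 := (main h (G h) rfl).2.2.1

theorem J_finite : Finite (G h ⧸ Subgroup.center (G h)) :=
  Nat.finite_of_card_ne_zero (by rw [J_card h]; norm_num)

theorem J_conj (g : G h ⧸ Subgroup.center (G h)) (hg : g * g = 1) (hg1 : g ≠ 1) :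
    ∃ u : G h ⧸ Subgroup.center (G h), u * pi h (gQ h 1) * u⁻¹ = g := by
  have : Fact (Nat.Prime 2) := ⟨Nat.prime_two⟩
  have ho : orderOf g = 2 := orderOf_eq_prime (by rw [pow_two]; exact hg) hg1
  obtain ⟨g0, hg2, hg01, hgx⟩ := Cfsg.Agent.H24.J3C.invol_lift (center_card h) g ho
  obtain ⟨u, hu⟩ := invol_conj h g0 hg2 hg01
  refine ⟨pi h u, ?_⟩
  rw [gQ_one, ← hgx, ← hu]
  show pi h u * pi h (yh h) * (pi h u)⁻¹ = pi h (u * yh h * u⁻¹)
  rw [map_mul, map_mul, map_inv]

theorem J_cent (hCent : StCent.{u}) (g : G h ⧸ Subgroup.center (G h))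
    (hg : g * pi h (gQ h 1) = pi h (gQ h 1) * g) :
    ∃ (a : Fin 32) (b : Fin 60), g = pi h (gQ h a) * pi h (gH h b) := by
  have := J_finite h
  rw [gQ_one] at hg
  refine hCent _ (pi h (yh h)) (fun a => pi h (gQ h a)) (fun b => pi h (gH h b)) qmF hmF actF
    ?_ ?_ ?_ ?_ ?_ (pi_gQ_inj h) (pi_gH_inj h) (pi_gQ_gH h) ?_ ?_ (card_cent_le h) g hg
  · show pi h (gQ h 0) = 1
    rw [gQ_zero, map_one]
  · show pi h (gH h 0) = 1
    rw [gH_zero, map_one]
  · intro a a'
    show pi h (gQ h a) * pi h (gQ h a') = pi h (gQ h (qmF a a'))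
    rw [← map_mul, gQ_mul]
  · intro b b'
    show pi h (gH h b) * pi h (gH h b') = pi h (gH h (hmF b b'))
    rw [← map_mul, gH_mul]
  · intro b a
    show pi h (gH h b) * pi h (gQ h a) = pi h (gQ h (actF b a)) * pi h (gH h b)
    rw [← map_mul, ← map_mul, gH_gQ]
  · intro a
    show pi h (gQ h a) * pi h (yh h) = pi h (yh h) * pi h (gQ h a)
    rw [← map_mul, ← map_mul, gQ_yh]
  · intro b
    show pi h (gH h b) * pi h (yh h) = pi h (yh h) * pi h (gH h b)
    rw [← map_mul, ← map_mul, gH_yh]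

/-- The data of the involution centraliser of `J₃`. -/
noncomputable def cd (hCent : StCent.{u}) : CD (G h ⧸ Subgroup.center (G h)) where
  eq := fun a => pi h (gQ h a)
  eh := fun b => pi h (gH h b)
  qm := qmF
  hm := hmF
  act := actF
  V := Vf
  hq0 := by rw [gQ_zero, map_one]
  hh0 := by rw [gH_zero, map_one]
  hqm := fun a a' => by rw [← map_mul, gQ_mul]
  hhm := fun b b' => by rw [← map_mul, gH_mul]
  hact := fun b a => by rw [← map_mul, ← map_mul, gH_gQ]
  hqi := pi_gQ_inj h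
  hhi := pi_gH_inj h
  hqh := pi_gQ_gH h
  hcent := J_cent h hCent
  hconj := J_conj h
  T0 := fT0
  T1 := fT1
  T2 := fT2
  T3 := tab_cen
  T4 := fT4
  T5 := fT5
  T6 := fT6
  T7 := tab_zc
  T8 := fT8
  hV0 := fV0
  hVm := fVm
  hVc := fVc
  hV2 := fV2

theorem fus_h (hCard : StCard.{u}) (hSyl : StSyl.{u}) (hCl : StCl.{u}) (hEQ : StEQ.{u})
    (hNP : StNP.{u}) (hGen : StGen.{u}) (hCent : StCent.{u})
    {G' : Type v} [Group G'] [Finite G'] (e : G' ≃* G h ⧸ Subgroup.center (G h))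
    (S : Sylow 2 G') : (Cfsg.groupFusionSystem (S : Subgroup G')).IsSimple 2 := by
  have := J_finite h
  exact fus_abs hCard hSyl hCl hEQ hNP hGen (cd h hCent) (J_card h) e.symm S

theorem fus_K (hCard : StCard.{u}) (hSyl : StSyl.{u}) (hCl : StCl.{u}) (hEQ : StEQ.{u})
    (hNP : StNP.{u}) (hGen : StGen.{u}) (hCent : StCent.{u})
    (K : Subgroup (GL F9 F)) (hK : K = G h)
    {G' : Type v} [Group G'] [Finite G'] (e : G' ≃* K ⧸ Subgroup.center K)
    (S : Sylow 2 G') : (Cfsg.groupFusionSystem (S : Subgroup G')).IsSimple 2 := by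
  subst hK
  exact fus_h h hCard hSyl hCl hEQ hNP hGen hCent e S

end

end Cfsg.Agent.H34.J3F
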