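import Cfsg.Agent.H34.J3CMain

/-!
helper34: table facts about the involution centraliser `2^{1+4}_- : A₅` of `J₃` used for S5322.
-/

set_option autoImplicit false

namespace Cfsg.Agent.H34.J3F

open Cfsg.Agent.H34.J3C

/-- a four-group of `H ≅ A₅` -/
def Vf : Finset (Fin 60) := {0, 2, 23, 37}

theorem fT0 : ∀ a : Fin 32, ∃ a' : Fin 32, qmF a a' = 0 := by decide +kernel

theorem fT1 : ∀ a : Fin 32, ∃ a1 a2 : Fin 32, qmF a1 a1 = 0 ∧ qmF a2 a2 = 0 ∧ qmF a1 a2 = a := by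
  decide +kernel

theorem fT2 : ∀ (a : Fin 32) (b : Fin 60), (∀ a' : Fin 32, qmF a (actF b a') = qmF a' a) → b = 0 := by
  decide +kernel

theorem fT4 : ∀ b : Fin 60, ∃ b1 b2 : Fin 60, hmF b1 b1 = 0 ∧ hmF b2 b2 = 0 ∧ hmF b1 b2 = b := by
  decide +kernel

theorem fT5 : ∀ a : Fin 32, qmF (qmF a a) (qmF a a) = 0 := by decide +kernel

theorem fT6 : ∀ b : Fin 60, actF b 1 = 1 := by decide +kernel

theorem fT8 : qmF 1 1 = 0 := by decide +kernel

theorem fV0 : (0 : Fin 60) ∈ Vf := by decide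

theorem fVm : ∀ v ∈ Vf, ∀ w ∈ Vf, hmF v w ∈ Vf := by decide +kernel

theorem fVc : Vf.card = 4 := by decide

theorem fV2 : ∀ v ∈ Vf, hmF v v = 0 := by decide +kernel

end Cfsg.Agent.H34.J3F
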