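import Mathlib
import Cfsg.Agent.H34.PgDefs

/-! # S3663: assembly from the pieces (helper34) -/

set_option autoImplicit false

namespace Cfsg.Agent.H34.PG

universe u

theorem prime_dvd_62400 {p : ℕ} (hp : p.Prime) (h : p ∣ 62400) :
    p = 2 ∨ p = 3 ∨ p = 5 ∨ p = 13 := by
  have e : (62400 : ℕ) = 2 ^ 6 * 3 * 5 ^ 2 * 13 := by norm_num
  rw [e] at h
  rcases (Nat.Prime.dvd_mul hp).1 h with h | h
  · rcases (Nat.Prime.dvd_mul hp).1 h with h | h
    · rcases (Nat.Prime.dvd_mul hp).1 h with h | h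
      · exact Or.inl ((Nat.prime_dvd_prime_iff_eq hp Nat.prime_two).1 (hp.dvd_of_dvd_pow h))
      · exact Or.inr (Or.inl ((Nat.prime_dvd_prime_iff_eq hp Nat.prime_three).1 h))
    · exact Or.inr (Or.inr (Or.inl
        ((Nat.prime_dvd_prime_iff_eq hp Nat.prime_five).1 (hp.dvd_of_dvd_pow h))))
  · exact Or.inr (Or.inr (Or.inr ((Nat.prime_dvd_prime_iff_eq hp (by norm_num)).1 h)))

theorem main (hT : StTrans.{u}) (hC : StCard) (hE : StEx) (hF : StFpf) (hN : StNz)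
    (hX : StExt) {F : Type u} [Field F] [Fintype F] (hF16 : Fintype.card F = 16) (N : ℕ) :
    ∃ (H : Type) (_ : Group H) (_ : Finite H), N < Nat.card H ∧
      ((∀ p : ℕ, p.Prime → (p ∣ Nat.card (Cfsg.PSU 3 F 4) ↔ p ∣ Nat.card H)) ∧
      (∀ p q : ℕ, p.Prime → q.Prime → p ≠ q →
        ((∃ g : (Cfsg.PSU 3 F 4), orderOf g = p * q) ↔ (∃ g : H, orderOf g = p * q)))) := by
  obtain ⟨e⟩ := hT F hF16
  have hfin : Finite G := Nat.finite_of_card_ne_zero (by rw [hC]; norm_num)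
  have h5 : ∀ a : Multiplicative ↥VV, a ^ 5 = 1 := by
    intro a
    apply Multiplicative.toAdd.injective
    apply Subtype.ext
    funext x y
    show (5 : ℕ) • (Multiplicative.toAdd a).1 x y = 0
    rw [nsmul_eq_mul]
    have h0 : ((5 : ℕ) : ZMod 5) = 0 := by decide
    rw [h0, zero_mul]
  have hnz : ∃ a : Multiplicative ↥VV, a ≠ 1 := by
    obtain ⟨f, hf, x, y, hx, hy, hxy⟩ := hN
    refine ⟨Multiplicative.ofAdd ⟨dl f, ⟨f, hf, rfl⟩⟩, ?_⟩
    intro h
    have h1 : (⟨dl f, ⟨f, hf, rfl⟩⟩ : ↥VV) = 0 := Multiplicative.ofAdd.injective h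
    have h2 : dl f x y = 0 := by
      have := congrArg (fun v : ↥VV => v.1 x y) h1
      simpa using this
    rw [dl, if_pos ⟨hx, hy⟩, sub_eq_zero] at h2
    exact hxy h2
  have hfpf : ∀ g : G, orderOf g = 13 → ∀ a : Multiplicative ↥VV, rho g a = a → a = 1 := by
    intro g hg a ha
    have := hF g hg (Multiplicative.toAdd a) (Multiplicative.ofAdd.injective ha)
    exact Multiplicative.toAdd.injective this
  obtain ⟨H, iG, iF, hlt, hp, hpq⟩ := hX G (Multiplicative ↥VV) rho h5 hnz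
    (fun p hp hd => prime_dvd_62400 hp (by rw [← hC]; exact hd))
    (by rw [hC]; norm_num) hE.1 hE.2 hfpf N
  refine ⟨H, iG, iF, hlt, ?_, ?_⟩
  · intro p hpp
    rw [Nat.card_congr e.toEquiv]
    exact hp p hpp
  · intro p q hpp hqq hne
    rw [← hpq p q hpp hqq hne]
    constructor
    · rintro ⟨g, hg⟩
      exact ⟨e g, by rw [MulEquiv.orderOf_eq]; exact hg⟩
    · rintro ⟨g, hg⟩
      exact ⟨e.symm g, by rw [MulEquiv.orderOf_eq]; exact hg⟩

end Cfsg.Agent.H34.PG
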