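import Mathlib
import Cfsg.Agent.H34.PgDefs
import Cfsg.Agent.H62.PSU3a

/-! # S3663, piece FIX0 (helper34): an element of order 13 of `SU₃(4)` whose invariant functions
with zero line sums are constant on the isotropic points (orbit table + four lines). -/

set_option autoImplicit false

namespace Cfsg.Agent.H34.PG

open Matrix

/-- an element of order 13 -/
def M13 : Matrix (Fin 3) (Fin 3) K :=
  !![kk 0, kk 9, kk 13; kk 1, kk 0, kk 0; kk 0, kk 11, kk 14]

theorem m13_isU3 : Cfsg.Agent.H62.IsU3 (2 ^ 2) M13 := by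
  constructor <;> decide +kernel

/-- the element of order 13 in the group -/
def g13 : G := Cfsg.Agent.H62.mkSU3 2 2 M13 m13_isU3

theorem mat_g13 : mat g13 = M13 := rfl

theorem mat_pow (g : G) (n : ℕ) : mat (g ^ n) = mat g ^ n := by
  induction n with
  | zero => rfl
  | succ n ih => rw [pow_succ, pow_succ, mat_mul, ih]

theorem eq_of_mat_eq {g h : G} (e : mat g = mat h) : g = h :=
  Subtype.ext (Subtype.ext e)

theorem g13_order : orderOf g13 = 13 := by
  haveI : Fact (Nat.Prime 13) := ⟨by norm_num⟩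
  apply orderOf_eq_prime
  · apply eq_of_mat_eq
    rw [mat_pow, mat_g13]
    show M13 ^ 13 = 1
    decide +kernel
  · intro h
    have e : mat g13 = mat 1 := by rw [h]
    rw [mat_g13] at e
    revert e
    show ¬ (M13 = 1)
    decide +kernel

/-- the 65 isotropic points, in five runs of 13 along the orbits of `M13` -/
def tbL : List E := [
  ![kk 0, kk 1, kk 1],
  ![kk 1, kk 0, kk 12],
  ![kk 1, kk 14, kk 13],
  ![kk 1, kk 2, kk 4],
  ![kk 0, kk 1, kk 8],
  ![kk 1, kk 0, kk 10],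
  ![kk 1, kk 5, kk 13],
  ![kk 1, kk 11, kk 9],
  ![kk 1, kk 14, kk 11],
  ![kk 1, kk 1, kk 0],
  ![kk 1, kk 2, kk 5],
  ![kk 1, kk 4, kk 11],
  ![kk 1, kk 13, kk 9],
  ![kk 0, kk 1, kk 10],
  ![kk 1, kk 0, kk 15],
  ![kk 1, kk 6, kk 13],
  ![kk 1, kk 4, kk 7],
  ![kk 1, kk 6, kk 7],
  ![kk 1, kk 7, kk 9],
  ![kk 1, kk 11, kk 14],
  ![kk 1, kk 7, kk 14],
  ![kk 0, kk 1, kk 15],
  ![kk 1, kk 0, kk 1],
  ![kk 1, kk 4, kk 13],
  ![kk 1, kk 10, kk 0],
  ![kk 1, kk 11, kk 5],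
  ![kk 0, kk 1, kk 12],
  ![kk 1, kk 0, kk 8],
  ![kk 1, kk 9, kk 13],
  ![kk 1, kk 14, kk 2],
  ![kk 1, kk 3, kk 9],
  ![kk 1, kk 6, kk 3],
  ![kk 1, kk 6, kk 2],
  ![kk 1, kk 12, kk 0],
  ![kk 1, kk 7, kk 5],
  ![kk 1, kk 7, kk 6],
  ![kk 1, kk 9, kk 3],
  ![kk 1, kk 2, kk 9],
  ![kk 1, kk 3, kk 6],
  ![kk 1, kk 2, kk 6],
  ![kk 1, kk 2, kk 14],
  ![kk 1, kk 5, kk 3],
  ![kk 1, kk 8, kk 0],
  ![kk 1, kk 13, kk 5],
  ![kk 1, kk 14, kk 3],
  ![kk 1, kk 14, kk 7],
  ![kk 1, kk 9, kk 2],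
  ![kk 1, kk 13, kk 4],
  ![kk 1, kk 3, kk 14],
  ![kk 1, kk 9, kk 11],
  ![kk 1, kk 5, kk 7],
  ![kk 1, kk 3, kk 4],
  ![kk 1, kk 3, kk 5],
  ![kk 1, kk 13, kk 14],
  ![kk 1, kk 11, kk 6],
  ![kk 1, kk 13, kk 6],
  ![kk 1, kk 6, kk 11],
  ![kk 1, kk 11, kk 4],
  ![kk 1, kk 4, kk 3],
  ![kk 1, kk 7, kk 4],
  ![kk 1, kk 5, kk 11],
  ![kk 1, kk 4, kk 2],
  ![kk 1, kk 5, kk 2],
  ![kk 1, kk 9, kk 7],
  ![kk 1, kk 15, kk 0]]

/-- the `n`-th isotropic point -/
def tb (n : ℕ) : E := tbL.getD n 0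

/-- the fourth power, on raw operations -/
def frobF (x : K) : K := Cfsg.Agent.H51.F16.mulF (Cfsg.Agent.H51.F16.mulF x x)
  (Cfsg.Agent.H51.F16.mulF x x)

/-- `hh v v` for `v = ![a, b, c]`, on raw operations -/
def nF (a b c : K) : K :=
  Cfsg.Agent.H51.F16.addF (Cfsg.Agent.H51.F16.addF (Cfsg.Agent.H51.F16.mulF a (frobF a))
    (Cfsg.Agent.H51.F16.mulF b (frobF b))) (Cfsg.Agent.H51.F16.mulF c (frobF c))

/-- zero test -/
def isZ (x : K) : Bool := !(x.c0 || x.c1 || x.c2 || x.c3)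

/-- the isotropy test, on raw operations -/
def isoB (a b c : K) : Bool := !(isZ a && isZ b && isZ c) && isZ (nF a b c)

/-- the number of an element of `K` -/
def kn (x : K) : ℕ := cond x.c0 1 0 + cond x.c1 2 0 + cond x.c2 4 0 + cond x.c3 8 0

/-- the code of a vector -/
def code (y : E) : ℕ := kn (y 0) + 16 * kn (y 1) + 256 * kn (y 2)

/-- the scalar normalising `![a, b, c]` -/
def nsc (a b c : K) : K :=
  if isZ a = false then Cfsg.Agent.H51.F16.invF a
  else if isZ b = false then Cfsg.Agent.H51.F16.invF b else Cfsg.Agent.H51.F16.invF c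

/-- the code of the normalised vector, on raw operations -/
def ncode (a b c : K) : ℕ :=
  kn (Cfsg.Agent.H51.F16.mulF (nsc a b c) a) + 16 * kn (Cfsg.Agent.H51.F16.mulF (nsc a b c) b) +
    256 * kn (Cfsg.Agent.H51.F16.mulF (nsc a b c) c)

/-- the codes of the 65 isotropic points -/
def tbC : List ℕ := [272, 3073, 3553, 1057, 2064, 2561, 3409, 2481, 3041, 17, 1313, 2881, 2513, 2576, 3841, 3425, 1857, 1889, 2417, 3761, 3697, 3856, 257, 3393, 161, 1457, 3088, 2049, 3473, 737, 2353, 865, 609, 193, 1393, 1649, 913, 2337, 1585, 1569, 3617, 849, 129, 1489, 993, 2017, 657, 1233, 3633, 2961, 1873, 1073, 1329, 3793, 1713, 1745, 2913, 1201, 833, 1137, 2897, 577, 593, 1937, 241]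

theorem tbC_eq : tbL.map code = tbC := by decide +kernel

theorem F4s_eq : F4s = {0, 1, kk 6, kk 7} := by decide +kernel

theorem step13 : ∀ n : Fin 65, n.val % 13 ≠ 12 →
    ∃ c : K, c ≠ 0 ∧ M13 *ᵥ tb n.val = c • tb (n.val + 1) := by decide +kernel

theorem cover13 : ∀ a b c : K, isoB a b c = true → ncode a b c ∈ tbC := by decide +kernel

theorem isZ_iff : ∀ x : K, isZ x = true ↔ x = 0 := by decide

theorem kn_inj : ∀ x y : K, kn x = kn y → x = y := by decide

theorem kn_lt : ∀ x : K, kn x < 16 := by decide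

theorem code_inj {x y : E} (h : code x = code y) : x = y := by
  unfold code at h
  have a0 := kn_lt (x 0)
  have a1 := kn_lt (x 1)
  have a2 := kn_lt (x 2)
  have b0 := kn_lt (y 0)
  have b1 := kn_lt (y 1)
  have b2 := kn_lt (y 2)
  have e0 : kn (x 0) = kn (y 0) := by omega
  have e1 : kn (x 1) = kn (y 1) := by omega
  have e2 : kn (x 2) = kn (y 2) := by omega
  funext i
  fin_cases i
  · exact kn_inj _ _ e0
  · exact kn_inj _ _ e1
  · exact kn_inj _ _ e2

theorem vec_eta (x : E) : x = ![x 0, x 1, x 2] := by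
  funext i
  fin_cases i <;> rfl

theorem isoB_of_isoV {z : E} (hz : IsoV z) : isoB (z 0) (z 1) (z 2) = true := by
  obtain ⟨h0, h1⟩ := hz
  have e : hh z z = nF (z 0) (z 1) (z 2) := by
    show Cfsg.hermForm 3 K 4 z z = _
    simp only [Cfsg.hermForm, Fin.sum_univ_three]
    have p : ∀ x : K, x ^ 4 = frobF x := fun x => by
      show x ^ 4 = (x * x) * (x * x)
      ring
    rw [p, p, p]
    rfl
  rw [e] at h1
  unfold isoB
  rw [(isZ_iff _).2 h1, Bool.and_true]
  cases ha : isZ (z 0) with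
  | false => rfl
  | true =>
    cases hb : isZ (z 1) with
    | false => rfl
    | true =>
      cases hc : isZ (z 2) with
      | false => rfl
      | true =>
        exfalso
        apply h0
        funext i
        fin_cases i
        · exact (isZ_iff _).1 ha
        · exact (isZ_iff _).1 hb
        · exact (isZ_iff _).1 hc

theorem nsc_ne_zero {z : E} (hz : z ≠ 0) : nsc (z 0) (z 1) (z 2) ≠ 0 := by
  unfold nsc
  have hinv : ∀ x : K, x ≠ 0 → Cfsg.Agent.H51.F16.invF x ≠ 0 := fun x hx => by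
    show x⁻¹ ≠ 0
    exact inv_ne_zero hx
  have hnz : ∀ x : K, isZ x = false → x ≠ 0 := fun x hx h => by
    rw [(isZ_iff x).2 h] at hx
    exact Bool.noConfusion hx
  split_ifs with ha hb
  · exact hinv _ (hnz _ ha)
  · exact hinv _ (hnz _ hb)
  · apply hinv
    intro hc
    apply hz
    funext i
    fin_cases i
    · exact (isZ_iff _).1 (by simpa using ha)
    · exact (isZ_iff _).1 (by simpa using hb)
    · exact hc

theorem ncode_eq (z : E) : ncode (z 0) (z 1) (z 2) = code (nsc (z 0) (z 1) (z 2) • z) := rfl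

/-- line 0 -/
def bu0 : E := ![kk 0, kk 1, kk 1]
/-- line 0 -/
def bv0 : E := ![kk 0, kk 2, kk 3]

theorem bl0 : IsoV bu0 ∧ IsoV bv0 ∧ hh bu0 bv0 = 1 := by decide +kernel

/-- line 1 -/
def bu1 : E := ![kk 0, kk 1, kk 1]
/-- line 1 -/
def bv1 : E := ![kk 2, kk 8, kk 9]

theorem bl1 : IsoV bu1 ∧ IsoV bv1 ∧ hh bu1 bv1 = 1 := by decide +kernel

/-- line 2 -/
def bu2 : E := ![kk 0, kk 1, kk 1]
/-- line 2 -/
def bv2 : E := ![kk 3, kk 8, kk 9]

theorem bl2 : IsoV bu2 ∧ IsoV bv2 ∧ hh bu2 bv2 = 1 := by decide +kernel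

/-- line 3 -/
def bu3 : E := ![kk 0, kk 1, kk 1]
/-- line 3 -/
def bv3 : E := ![kk 4, kk 10, kk 11]

theorem bl3 : IsoV bu3 ∧ IsoV bv3 ∧ hh bu3 bv3 = 1 := by decide +kernel

theorem solve13 : ∀ c0 c1 c2 c3 c4 : ZMod 5, c0 + (c0 + (c1 + (c2 + c1))) = 0 → c0 + (c1 + (c3 + (c1 + c3))) = 0 → c0 + (c4 + (c1 + (c1 + c4))) = 0 → c0 + (c4 + (c4 + (c3 + c3))) = 0 →
    c1 = c0 ∧ c2 = c0 ∧ c3 = c0 ∧ c4 = c0 := by decide

theorem fix0 : StFix0 := by
  refine ⟨g13, g13_order, ?_⟩
  intro f hf hinv x y hx hy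
  have hs := hf.2.1
  have hb := hf.2.2
  have hinv' : ∀ x, f (M13 *ᵥ x) = f x := hinv
  have hstep : ∀ n : ℕ, n < 65 → n % 13 ≠ 12 → f (tb (n + 1)) = f (tb n) := by
    intro n hn h12
    obtain ⟨c, hc, e⟩ := step13 ⟨n, hn⟩ h12
    rw [← hinv' (tb n), e, hs c _ hc]
  have hrun : ∀ i k : ℕ, i < 5 → k < 13 → f (tb (13 * i + k)) = f (tb (13 * i)) := by
    intro i k hi
    induction k with
    | zero => intro _; rfl
    | succ k ih =>
      intro hk
      rw [← add_assoc, hstep (13 * i + k) (by omega) (by omega), ih (by omega)]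
  have hcls : ∀ n : ℕ, n < 65 → f (tb n) = f (tb (13 * (n / 13))) := by
    intro n hn
    have := hrun (n / 13) (n % 13) (by omega) (Nat.mod_lt _ (by norm_num))
    rwa [Nat.div_add_mod] at this
  have hkey : ∀ (n : ℕ) (c : K), n < 65 → c ≠ 0 → f (c • tb n) = f (tb (13 * (n / 13))) := by
    intro n c hn hc
    rw [hs c _ hc, hcls n hn]
  have e0 := hb bu0 bv0 bl0.1 bl0.2.1 bl0.2.2
  rw [F4s_eq, Finset.sum_insert (by decide +kernel), Finset.sum_insert (by decide +kernel),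
    Finset.sum_insert (by decide +kernel), Finset.sum_singleton] at e0
  have p0_u : f bu0 = f (tb 0) := by
    rw [show bu0 = kk 1 • tb 0 from by decide +kernel]
    exact hkey 0 (kk 1) (by norm_num) (by decide +kernel)
  have p0_0 : f (bv0 + (0 : K) • bu0) = f (tb 0) := by
    rw [show bv0 + (0 : K) • bu0 = kk 2 • tb 4 from by decide +kernel]
    exact hkey 4 (kk 2) (by norm_num) (by decide +kernel)
  have p0_1 : f (bv0 + (1 : K) • bu0) = f (tb 13) := by
    rw [show bv0 + (1 : K) • bu0 = kk 3 • tb 21 from by decide +kernel]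
    exact hkey 21 (kk 3) (by norm_num) (by decide +kernel)
  have p0_2 : f (bv0 + kk 6 • bu0) = f (tb 26) := by
    rw [show bv0 + kk 6 • bu0 = kk 4 • tb 26 from by decide +kernel]
    exact hkey 26 (kk 4) (by norm_num) (by decide +kernel)
  have p0_3 : f (bv0 + kk 7 • bu0) = f (tb 13) := by
    rw [show bv0 + kk 7 • bu0 = kk 5 • tb 13 from by decide +kernel]
    exact hkey 13 (kk 5) (by norm_num) (by decide +kernel)
  rw [p0_u, p0_0, p0_1, p0_2, p0_3] at e0
  have e1 := hb bu1 bv1 bl1.1 bl1.2.1 bl1.2.2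
  rw [F4s_eq, Finset.sum_insert (by decide +kernel), Finset.sum_insert (by decide +kernel),
    Finset.sum_insert (by decide +kernel), Finset.sum_singleton] at e1
  have p1_u : f bu1 = f (tb 0) := by
    rw [show bu1 = kk 1 • tb 0 from by decide +kernel]
    exact hkey 0 (kk 1) (by norm_num) (by decide +kernel)
  have p1_0 : f (bv1 + (0 : K) • bu1) = f (tb 13) := by
    rw [show bv1 + (0 : K) • bu1 = kk 2 • tb 23 from by decide +kernel]
    exact hkey 23 (kk 2) (by norm_num) (by decide +kernel)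
  have p1_1 : f (bv1 + (1 : K) • bu1) = f (tb 39) := by
    rw [show bv1 + (1 : K) • bu1 = kk 2 • tb 47 from by decide +kernel]
    exact hkey 47 (kk 2) (by norm_num) (by decide +kernel)
  have p1_2 : f (bv1 + kk 6 • bu1) = f (tb 13) := by
    rw [show bv1 + kk 6 • bu1 = kk 2 • tb 20 from by decide +kernel]
    exact hkey 20 (kk 2) (by norm_num) (by decide +kernel)
  have p1_3 : f (bv1 + kk 7 • bu1) = f (tb 39) := by
    rw [show bv1 + kk 7 • bu1 = kk 2 • tb 45 from by decide +kernel]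
    exact hkey 45 (kk 2) (by norm_num) (by decide +kernel)
  rw [p1_u, p1_0, p1_1, p1_2, p1_3] at e1
  have e2 := hb bu2 bv2 bl2.1 bl2.2.1 bl2.2.2
  rw [F4s_eq, Finset.sum_insert (by decide +kernel), Finset.sum_insert (by decide +kernel),
    Finset.sum_insert (by decide +kernel), Finset.sum_singleton] at e2
  have p2_u : f bu2 = f (tb 0) := by
    rw [show bu2 = kk 1 • tb 0 from by decide +kernel]
    exact hkey 0 (kk 1) (by norm_num) (by decide +kernel)
  have p2_0 : f (bv2 + (0 : K) • bu2) = f (tb 52) := by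
    rw [show bv2 + (0 : K) • bu2 = kk 3 • tb 63 from by decide +kernel]
    exact hkey 63 (kk 3) (by norm_num) (by decide +kernel)
  have p2_1 : f (bv2 + (1 : K) • bu2) = f (tb 13) := by
    rw [show bv2 + (1 : K) • bu2 = kk 3 • tb 18 from by decide +kernel]
    exact hkey 18 (kk 3) (by norm_num) (by decide +kernel)
  have p2_2 : f (bv2 + kk 6 • bu2) = f (tb 13) := by
    rw [show bv2 + kk 6 • bu2 = kk 3 • tb 25 from by decide +kernel]
    exact hkey 25 (kk 3) (by norm_num) (by decide +kernel)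
  have p2_3 : f (bv2 + kk 7 • bu2) = f (tb 52) := by
    rw [show bv2 + kk 7 • bu2 = kk 3 • tb 60 from by decide +kernel]
    exact hkey 60 (kk 3) (by norm_num) (by decide +kernel)
  rw [p2_u, p2_0, p2_1, p2_2, p2_3] at e2
  have e3 := hb bu3 bv3 bl3.1 bl3.2.1 bl3.2.2
  rw [F4s_eq, Finset.sum_insert (by decide +kernel), Finset.sum_insert (by decide +kernel),
    Finset.sum_insert (by decide +kernel), Finset.sum_singleton] at e3
  have p3_u : f bu3 = f (tb 0) := by
    rw [show bu3 = kk 1 • tb 0 from by decide +kernel]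
    exact hkey 0 (kk 1) (by norm_num) (by decide +kernel)
  have p3_0 : f (bv3 + (0 : K) • bu3) = f (tb 52) := by
    rw [show bv3 + (0 : K) • bu3 = kk 4 • tb 54 from by decide +kernel]
    exact hkey 54 (kk 4) (by norm_num) (by decide +kernel)
  have p3_1 : f (bv3 + (1 : K) • bu3) = f (tb 52) := by
    rw [show bv3 + (1 : K) • bu3 = kk 4 • tb 56 from by decide +kernel]
    exact hkey 56 (kk 4) (by norm_num) (by decide +kernel)
  have p3_2 : f (bv3 + kk 6 • bu3) = f (tb 39) := by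
    rw [show bv3 + kk 6 • bu3 = kk 4 • tb 48 from by decide +kernel]
    exact hkey 48 (kk 4) (by norm_num) (by decide +kernel)
  have p3_3 : f (bv3 + kk 7 • bu3) = f (tb 39) := by
    rw [show bv3 + kk 7 • bu3 = kk 4 • tb 44 from by decide +kernel]
    exact hkey 44 (kk 4) (by norm_num) (by decide +kernel)
  rw [p3_u, p3_0, p3_1, p3_2, p3_3] at e3
  obtain ⟨h1, h2, h3, h4⟩ := solve13 (f (tb 0)) (f (tb 13)) (f (tb 26)) (f (tb 39)) (f (tb 52))
    e0 e1 e2 e3
  have hconst : ∀ n : ℕ, n < 65 → f (tb n) = f (tb 0) := by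
    intro n hn
    rw [hcls n hn]
    have hq : n / 13 = 0 ∨ n / 13 = 1 ∨ n / 13 = 2 ∨ n / 13 = 3 ∨ n / 13 = 4 := by omega
    rcases hq with h | h | h | h | h <;> rw [h]
    · exact h1
    · exact h2
    · exact h3
    · exact h4
  have hval : ∀ z : E, IsoV z → f z = f (tb 0) := by
    intro z hz
    have hc := cover13 (z 0) (z 1) (z 2) (isoB_of_isoV hz)
    rw [ncode_eq, ← tbC_eq, List.mem_map] at hc
    obtain ⟨v, hv, hcode⟩ := hc
    have hv' : v = nsc (z 0) (z 1) (z 2) • z := code_inj hcode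
    obtain ⟨n, hn, hget⟩ := List.mem_iff_getElem.1 hv
    have hlen : tbL.length = 65 := rfl
    have htb : tb n = v := by
      unfold tb
      rw [List.getD_eq_getElem _ _ hn]
      exact hget
    rw [← hs _ z (nsc_ne_zero hz.1), ← hv', ← htb]
    exact hconst n (by rw [← hlen]; exact hn)
  rw [hval x hx, hval y hy]

end Cfsg.Agent.H34.PG
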